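import Mathlib
import Cfsg.Agent.Lib.Tame.NilQ
import Cfsg.Agent.Lib.Star.EqDeg
import Cfsg.Agent.Lib.ChDeg.Ito

/-!
# Blocks with a normal defect group: nilpotency and height zero degrees
-/

set_option autoImplicit false

namespace CfsgLib.NDef

open Cfsg CfsgLib.Char CfsgLib.Block CfsgLib.Blk CfsgLib.Cover MonoidAlgebra CfsgLib.Tame
open CfsgLib.BrPair hiding isBlk_eB
open scoped commutatorElement

attribute [local implicit_reducible] CfsgLib.Block.K

/-- A block with a normal defect group is nilpotent when its inertial quotient is trivial. -/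
theorem isNil_of_normal {p : ℕ} [Fact p.Prime] {k : Type*} [Field k] [CharP k p] {G : Type*}
    [Group G] [Finite G] {b e : k[G]} {P : Subgroup G} (M : MaxPair p ⊤ ⊤ b P e) [P.Normal]
    (h : ∀ x ∈ stN ⊤ P e, ¬ p ∣ orderOf x → x ∈ Cz P) : IsNil p ⊤ ⊤ b := by
  have hP : ∀ x, x ∈ Nz P := fun x => (Subgroup.normalizer_eq_top P).ge trivial
  have hN : ∀ {N : Subgroup G}, N ≤ Nz (Cz P) := fun {_} x _ => Nz_le_Nz_Cz P (hP x)
  rw [M.isNil_iff_sub]
  rintro Q f hf x ⟨⟨-, x1⟩, x2⟩ x3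
  have hQ : Cz P ≤ Cz Q := Subgroup.centralizer_le hf.le
  have key : ∀ e, IsBlk (Cz P) e → SubLE p ⊤ Q f P e → orbSum (Cz Q) e * f = f := fun e he hf => by
    have h1 := orbSum_mem (N := Cz Q) hN he.mem.1
    have h2 := (subLE_inf_Cz_iff le_rfl).2 hf
    rw [top_inf_eq] at h2
    have h3 := (h2.br_mul_iff ⟨h1.1.mono hQ, h1.2⟩ h1.1.fixed_of_Cz (idem_orbSum le_rfl hN hN he)).1
      (by rw [br, h1.1.trunc_eq, orbSum_mul_self le_rfl hN hN he])
    rwa [br, (h1.1.mono hQ).trunc_eq] at h3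
  have he := M.blk
  rw [top_inf_eq] at he
  have he' := he.cj_of_mem (N := ⊤) hN hN (Subgroup.mem_top x)
  have h1 := hf.cj' (x := x) (top_le_Nz_top trivial)
  rw [mem_Nz_iff_cS.1 x1, show cj x f = f from x2, mem_Nz_iff_cS.1 (hP x)] at h1
  have h2 := (isPrim_orbSum le_rfl hQ hN hN he').eq_of_mul_ne_zero (isCom_fixSub hQ)
    (isPrim_orbSum le_rfl hQ hN hN he) fun h0 => (M.blk_of hf).ne (by
      rw [← key _ he' h1, ← key e he hf, ← mul_assoc, h0, zero_mul])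
  obtain ⟨c, hc, h3⟩ := exists_cj_of_orbSum_mul_ne_zero le_rfl hN hN he' he (by
    rw [h2, orbSum_mul_self le_rfl hN hN he]; exact he.ne)
  obtain ⟨u, -, y, hy, h4, -, ⟨n, h5⟩, h6⟩ := exists_decomp p (K := stN ⊤ P e) (x := c * x)
    ⟨⟨trivial, hP _⟩, (cj_mul c x e).trans h3⟩
  refine mem_Cz_of_conj_eq h5 x1 (fun q hq => ?_) x3
  have h7 := mem_Cz.1 hc _ ((mem_Nz.1 x1 q).1 hq)
  calc x * q * x⁻¹ = c * x * q * (c * x)⁻¹ := by
        rw [mul_assoc c, mul_inv_rev, ← mul_assoc, mul_assoc c, ← h7]; group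
    _ = _ := by rw [← h4, mul_assoc u, ← mem_Cz.1 (h y hy h6) q (hf.le hq)]; group

variable {G Q : Type*} [Group G] [Fintype G] [Group Q] [Fintype Q] {p : ℕ} [Fact p.Prime]
  {M : Ideal AlgInt} (hM : IsPModular p M) {φ : G →* Q} (hφ : Function.Surjective φ)
include hM hφ

theorem isBlk_emb (hP : IsPGroup p φ.ker) {D : Subgroup Q}
    (hC : ∀ g ∈ D.comap φ, ¬ p ∣ orderOf g → g ∈ Cz φ.ker) {F : (K hM)[G]}
    (hF : IsBlk (D.comap φ) F) : IsBlk D (emb φ F) := by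
  classical
  obtain ⟨e, he, rfl⟩ := exists_sB hM hF
  have h1 := φ.subgroupComap_surjective_of_surjective D hφ
  have h2 : ∀ x : D.comap φ, x ∈ (φ.subgroupComap D).ker → (x : G) ∈ φ.ker :=
    fun x hx => congrArg Subtype.val hx
  have := isBlk_sB hM (isPBlock_preimage_infl hM _ h1 (fun x => by
    obtain ⟨n, hn⟩ := hP ⟨_, h2 x.1 x.2⟩
    exact ⟨n, Subtype.ext (Subtype.ext (Subtype.ext_iff.1 hn :))⟩)
    (fun g hg => mem_Cz.2 fun x hx => Subtype.ext
      (mem_Cz.1 (hC g g.2 (by rwa [Subgroup.orderOf_coe])) x (h2 x hx))) he)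
  rw [sB, eB_preimage_infl hM h1 he, ← emb_comp] at this
  rwa [sB, ← emb_comp]

theorem mem_Cz_of_isNil {D : Subgroup G} [D.Normal] (hk : φ.ker ≤ ⁅D, D⁆)
    {B : Set (IrrCharacter G)} (hB : IsPBlock M B)
    (h : IsNil p ⊤ ⊤ (eB hM (infl φ hφ ⁻¹' B))) {f : (K hM)[G]}
    (hf : IsPair p ⊤ ⊤ (eB hM B) D f) {t : G} (t2 : cj t f = f) (t3 : ¬ p ∣ orderOf t) :
    t ∈ Cz D := by
  have hb := BrPair.isBlk_eB hM hB
  rw [eB_preimage_infl hM hφ hB] at h
  generalize eB hM B = b at *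
  have f1 := hf.blk
  rw [top_inf_eq] at f1
  have hN : ∀ x, x ∈ Nz D := fun x => (Subgroup.normalizer_eq_top D).ge trivial
  have hkD := hk.trans (Subgroup.commutator_le_left D D)
  have reg : ∀ x ∈ (Cz (D.map φ)).comap φ, ¬ p ∣ orderOf x → x ∈ Cz D := fun x hx h1 =>
    mem_Cz_of_commutator_le hf.pgroup h1 (fun y hy => hk (by
      rw [MonoidHom.mem_ker, map_commutatorElement, commutatorElement_eq_one_iff_mul_comm]
      exact mem_Cz.1 hx _ (Subgroup.mem_map_of_mem φ hy))) (hN x)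
  have le : Cz D ≤ (Cz (D.map φ)).comap φ := fun x hx => mem_Cz.2 (by
    rintro _ ⟨y, hy, rfl⟩
    rw [← map_mul, ← map_mul, mem_Cz.1 hx y hy])
  have t4 : φ t ∈ Nz (D.map φ) := mem_Nz_iff_cS.2 (by rw [← map_cS, mem_Nz_iff_cS.1 (hN t)])
  have t5 : cS t ((Cz (D.map φ)).comap φ) = (Cz (D.map φ)).comap φ := Subgroup.ext fun x => by
    rw [mem_cS, Subgroup.mem_comap, Subgroup.mem_comap, map_mul, map_mul, map_inv, ← mem_cS,
      mem_Nz_iff_cS.1 (Nz_le_Nz_Cz _ t4)]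
  obtain ⟨F, F1, F2⟩ := exists_prim_mul_ne_zero' (isCom_fixSub (k := K hM)
    (le_refl ((Cz (D.map φ)).comap φ))) f1.ne
  have F3 : F * f = f := f1.mul_eq_of_ne ⟨fun x hx => by_contra fun e => hx (reg x
    (F1.mem.1.mem e) fun d => e (coeff_eq_zero_of_dvd hM F1.mem F1.idem d)), F1.mem.2.mono le⟩
    F1.idem F2
  have F4 : cj t F = F := (t5 ▸ F1.cj t).eq_of_mul_ne_zero (isCom_fixSub le_rfl) F1 fun e =>
    f1.ne (by rw [← t2, ← F3, map_mul, t2, ← F3, ← mul_assoc, e, zero_mul])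
  have b1 : trunc ((Cz (D.map φ)).comap φ) b = br D b := ext' fun x => by
    by_cases e : x ∈ Cz D
    · rw [coeff_trunc_of_mem _ e, coeff_trunc_of_mem _ (le e)]
    rw [coeff_trunc_of_not_mem _ e]
    by_cases e' : x ∈ (Cz (D.map φ)).comap φ
    · rw [coeff_trunc_of_mem _ e']
      exact coeff_eq_zero_of_dvd hM hb.mem hb.idem (by_contra fun d => e (reg x e' d))
    · exact coeff_trunc_of_not_mem _ e'
  have b2 : br D b * F = F := F1.mul_eq_of_ne (b1 ▸ trunc_mem_center le_top hb.mem)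
    (isIdempotentElem_br hf.pgroup (hb.mem.2.mono le_top) hb.idem) fun e => f1.ne (by
      rw [← hf.br_mul, ← F3, ← mul_assoc, e, zero_mul])
  refine reg t (h (D.map φ) (emb φ F) ⟨le_top, hf.pgroup.map φ, ?_, ?_⟩ (φ t)
    ⟨⟨trivial, t4⟩, ?_⟩ (not_dvd_orderOf_map φ t3)) t3
  · rw [top_inf_eq]
    exact isBlk_emb hM hφ (hf.pgroup.to_le hkD)
      (fun g hg h1 => Subgroup.centralizer_le hkD (reg g hg h1)) F1
  · rw [br, trunc_emb', b1, ← map_mul, b2]
  · exact (cj_emb φ t F).trans (congrArg _ F4)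

theorem isNil_of_eq_deg {D : Subgroup G} [D.Normal] (hk : φ.ker = ⁅D, D⁆)
    {B : Set (IrrCharacter G)} (hB : IsPBlock M B) (hD : IsDefectGroup p M B D) {d : ℕ}
    (hd : ∀ χ ∈ B, blockHeight p B (χ : G → ℂ) = 0 → charDegree (χ : G → ℂ) = d) :
    IsNil p ⊤ ⊤ (eB hM B) := by
  obtain ⟨e, he⟩ := exists_maxPair_of_isDef le_rfl top_le_Nz_top (BrPair.isBlk_eB hM hB)
    ((isDefectGroup_iff hM hB).1 hD)
  have hkD := hk.le.trans (Subgroup.commutator_le_left D D)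
  obtain ⟨b, hb, hbB, hbD⟩ := exists_isDefectGroup_map hM φ hφ (he.pgroup.to_le hkD) hB hD
  obtain rfl : b = infl φ hφ ⁻¹' B := by
    obtain ⟨χ, rfl⟩ := hb
    exact hbB.antisymm fun ψ hψ => sameBlock_of_infl_of_ker_le_commutator hM φ hφ he.pgroup hk.le
      (sameBlock_of_mem hM hB (hbB (sameBlock_refl hM _)) hψ)
  obtain ⟨e', he'⟩ := exists_maxPair_of_isDef le_rfl top_le_Nz_top (BrPair.isBlk_eB hM hb)
    ((isDefectGroup_iff hM hb).1 hbD)
  have hab : D.map φ ≤ Cz (D.map φ) := by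
    rintro _ ⟨x, hx, rfl⟩
    refine mem_Cz.2 ?_
    rintro _ ⟨y, hy, rfl⟩
    rw [← commutatorElement_eq_one_iff_mul_comm, ← map_commutatorElement, ← MonoidHom.mem_ker, hk]
    exact Subgroup.commutator_mem_commutator hy hx
  refine isNil_of_normal he fun t ht => mem_Cz_of_isNil hM hφ hk.le hB
    (Star.isNil_of_eq_deg he' hb hab (m := d) fun χ hχ => ?_) he.pair ht.2
  rw [← charDegree_infl φ hφ]
  refine hd _ hχ ?_
  have := Subgroup.Normal.map inferInstance φ hφ (H := D)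
  have h1 := ChDeg.deg_dvd_index_of_comm χ.2 (D.map φ) fun a ha c hc => mem_Cz.1 (hab hc) a ha
  rw [Subgroup.index_map, sup_eq_left.2 hkD, MonoidHom.range_eq_top.2 hφ, Subgroup.index_top,
    mul_one, ← charDegree_infl φ hφ] at h1
  have h2 := factorization_charDegree_add_blockDefect (p := p) (B := B) (χ := infl φ hφ χ) hχ
  have h3 := (Nat.factorization_le_iff_dvd (charDegree_ne_zero (infl φ hφ χ).2)
    D.index_ne_zero_of_finite).2 h1 p
  rw [← D.card_mul_index, Nat.factorization_mul Nat.card_pos.ne' D.index_ne_zero_of_finite,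
    card_eq_pow_blockDefect hM hB hD, Nat.Prime.factorization_pow hM.1] at h2
  simp only [Finsupp.add_apply, Finsupp.single_eq_same] at h2
  omega

end CfsgLib.NDef
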